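import Mathlib
import Cfsg.Agent.Lib.H9.HN.HNFaith
import Cfsg.Agent.Lib.H10.NHN.Sub
import Cfsg.Agent.Lib.H10.NHN.R_w19
import Cfsg.Agent.Lib.H35.CoxGroup

/-!
# The presented Harada-Norton group is simple
-/

set_option autoImplicit false
set_option linter.all false
set_option maxRecDepth 20000

namespace H9.HN.Simple

open Cfsg.Spor H10.NHN H35.Net H35.TC H9.HN.Faith
open H9.HN.Up (triv_of_w)
open H10.HNAlt (Lt)

theorem mem_img : ∀ w : List Lt, (w = [.x] ∨ w = [.y] ∨ w = [.z]) → (w.map π).prod ∈ NW.map ρ := by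
  have hx : gP .x ∈ NW := by rw [NW_eq]; exact Subgroup.subset_closure (Or.inl rfl)
  have hy : gP .y ∈ NW := by rw [NW_eq]; exact Subgroup.subset_closure (Or.inr (Or.inl rfl))
  have hz : gP .z ∈ NW := by rw [NW_eq]; exact Subgroup.subset_closure (Or.inr (Or.inr rfl))
  rintro w (rfl | rfl | rfl)
  · refine ⟨gP .x, hx, ?_⟩
    rw [ρ_of, List.map_singleton, List.prod_singleton]; rfl
  · refine ⟨gP .y, hy, ?_⟩
    rw [ρ_of, List.map_singleton, List.prod_singleton]; rfl
  · refine ⟨gP .z, hz, ?_⟩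
    rw [ρ_of, List.map_singleton, List.prod_singleton]; rfl

/-- the suborbits -/
noncomputable def OO : Fin 8 → ℕ := ![O_0, O_1, O_2, O_3, O_4, O_5, O_6, O_7]

/-- base points of the suborbits -/
def bb : Fin 8 → ℕ := ![1, 116, 97104, 8, 357, 93979, 627, 2121]

/-- lengths of the suborbits -/
def zz' : Fin 8 → ℕ := ![1408, 2200, 5775, 35200, 123200, 277200, 354816, 739200]

theorem fin_of {b c : ℕ} (h : ∃ g ∈ NW.map ρ, g b = c) : ∃ h, ρ h 0 = 0 ∧ ρ h b = c := by
  obtain ⟨_, ⟨h, hh, rfl⟩, hg⟩ := h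
  exact ⟨h, NW_fix h hh, hg⟩

theorem sub_ok : ∀ i : Fin 8, ∀ b, (OO i).testBit b = true → ∃ h, ρ h 0 = 0 ∧ ρ h (bb i) = b := by
  intro i b hb
  fin_cases i
  · exact fin_of (O_0_orb (Γ := NW.map ρ) (fun w hw => mem_img w ((by decide : ∀ w ∈ os_0, w = [.x] ∨ w = [.y] ∨ w = [.z]) w hw)) b hb)
  · exact fin_of (O_1_orb (Γ := NW.map ρ) (fun w hw => mem_img w ((by decide : ∀ w ∈ os_1, w = [.x] ∨ w = [.y] ∨ w = [.z]) w hw)) b hb)
  · exact fin_of (O_2_orb (Γ := NW.map ρ) (fun w hw => mem_img w ((by decide : ∀ w ∈ os_2, w = [.x] ∨ w = [.y] ∨ w = [.z]) w hw)) b hb)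
  · exact fin_of (O_3_orb (Γ := NW.map ρ) (fun w hw => mem_img w ((by decide : ∀ w ∈ os_3, w = [.x] ∨ w = [.y] ∨ w = [.z]) w hw)) b hb)
  · exact fin_of (O_4_orb (Γ := NW.map ρ) (fun w hw => mem_img w ((by decide : ∀ w ∈ os_4, w = [.x] ∨ w = [.y] ∨ w = [.z]) w hw)) b hb)
  · exact fin_of (O_5_orb (Γ := NW.map ρ) (fun w hw => mem_img w ((by decide : ∀ w ∈ os_5, w = [.x] ∨ w = [.y] ∨ w = [.z]) w hw)) b hb)
  · exact fin_of (O_6_orb (Γ := NW.map ρ) (fun w hw => mem_img w ((by decide : ∀ w ∈ os_6, w = [.x] ∨ w = [.y] ∨ w = [.z]) w hw)) b hb)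
  · exact fin_of (O_7_orb (Γ := NW.map ρ) (fun w hw => mem_img w ((by decide : ∀ w ∈ os_7, w = [.x] ∨ w = [.y] ∨ w = [.z]) w hw)) b hb)

theorem cover (b : ℕ) (hb : b < 1539000) : b = 0 ∨ ∃ i : Fin 8, (OO i).testBit b = true := by
  have h := bit_of_full O_union hb
  rcases bit_lor h with h | h
  · rcases bit_lor h with h | h
    · rcases bit_lor h with h | h
      · rcases bit_lor h with h | h
        · rcases bit_lor h with h | h
          · rcases bit_lor h with h | h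
            · rcases bit_lor h with h | h
              · rcases bit_lor h with h | h
                · exact Or.inl (bit_one h)
                · exact Or.inr ⟨0, h⟩
              · exact Or.inr ⟨1, h⟩
            · exact Or.inr ⟨2, h⟩
          · exact Or.inr ⟨3, h⟩
        · exact Or.inr ⟨4, h⟩
      · exact Or.inr ⟨5, h⟩
    · exact Or.inr ⟨6, h⟩
  · exact Or.inr ⟨7, h⟩

theorem card_ok : ∀ i, popc 21 (OO i) = zz' i := by
  intro i
  fin_cases i
  · exact O_0_card
  · exact O_1_card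
  · exact O_2_card
  · exact O_3_card
  · exact O_4_card
  · exact O_5_card
  · exact O_6_card
  · exact O_7_card

/-- **simplicity** -/
theorem simple : IsSimpleGroup HN := by
  have := fin
  refine simple_of_net (k := 21) ρ ρ_inj 1539000 177408000 (by norm_num) (by rw [card_HN])
    pres_all' fix_all' ρ_trans (by norm_num) 8 OO bb zz' sub_ok card_ok cover (by decide) (by decide +kernel) ?_
  intro N hN hw
  have h1 : ((([.X, .t, .Y, .z, .y, .y] : List Lt).map lt).prod) ^ 19 = 1 := by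
    apply ρ_inj
    rw [map_pow, map_word ρ_lt, w19, map_one]
  have h2 := hw _ 19 h1 (by norm_num)
  have h3 : (QuotientGroup.mk' N) ((([.X, .t, .Y, .z, .y, .y] : List Lt).map lt).prod) = 1 :=
    (QuotientGroup.eq_one_iff _).2 h2
  have h4 : (([.X, .t, .Y, .z, .y, .y] : List Lt).map lt).prod =
      (gP .x)⁻¹ * (gP .t * ((gP .y)⁻¹ * (gP .z * (gP .y * (gP .y * 1))))) := rfl
  rw [h4, mul_one] at h3
  simp only [map_mul, map_inv] at h3
  have h5 := triv_of_w (H9.HN.Idx.rels.map (QuotientGroup.mk' N)) h3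
  have h6 := hom_triv (QuotientGroup.mk' N) h5
  rw [eq_top_iff]
  intro a _
  have h7 : (QuotientGroup.mk' N) a = 1 := by rw [h6]; rfl
  exact (QuotientGroup.eq_one_iff a).1 h7

end H9.HN.Simple
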